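import Cfsg.Agent.H957.T5V

/-!
# The trace trick for pairs of unipotent elements (S3826, own characteristic rows)

* `trace_key` : if `tr (N M) = tr (N t M t⁻¹) = tr (N t⁻¹ M t) = 0` for the transvection
  `t = 1 + μ φ ⊗ b`, `φ b = 0`, then `φ (N b) φ (M b) = 0` (`μ ≠ 0`, `2 ≠ 0`);
* `pow_one_of_scal` : a group generated by two linear maps `a`, `b` of order `p = char F` which is a
  `p`-group modulo scalars is a `p`-group;
* `trace_of_pair` : in this case `tr ((a - 1) (b - 1)) = 0`.
-/

set_option autoImplicit false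

namespace Cfsg.Agent.H405.Wf

open Cfsg.Agent.H957.T5V

section trace

variable {F V : Type*} [Field F] [AddCommGroup V] [Module F V] [FiniteDimensional F V]

/-- The rank one map `v ↦ φ v • b`. -/
def rk (φ : V →ₗ[F] F) (b : V) : Module.End F V := φ.smulRight b

omit [FiniteDimensional F V] in
@[simp] theorem rk_apply (φ : V →ₗ[F] F) (b v : V) : rk φ b v = φ v • b := rfl

theorem trace_rk (φ : V →ₗ[F] F) (b : V) : LinearMap.trace F V (rk φ b) = φ b := by
  unfold rk
  exact LinearMap.trace_smulRight φ b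

omit [FiniteDimensional F V] in
theorem mul_rk (N : Module.End F V) (φ : V →ₗ[F] F) (b : V) : N * rk φ b = rk φ (N b) := by
  ext v
  simp

omit [FiniteDimensional F V] in
theorem rk_mul_rk (M : Module.End F V) (φ : V →ₗ[F] F) (b : V) :
    rk φ b * M * rk φ b = φ (M b) • rk φ b := by
  ext v
  simp [smul_smul, mul_comm]

/-- The main computation. -/
theorem trace_key (h2 : (2 : F) ≠ 0) {φ : V →ₗ[F] F} {b : V} {μ : F} (hμ : μ ≠ 0)
    {N M : Module.End F V} (h0 : LinearMap.trace F V (N * M) = 0)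
    (h1 : LinearMap.trace F V (N * ((1 + μ • rk φ b) * M * (1 - μ • rk φ b))) = 0)
    (h1' : LinearMap.trace F V (N * ((1 - μ • rk φ b) * M * (1 + μ • rk φ b))) = 0) :
    φ (N b) = 0 ∨ φ (M b) = 0 := by
  set B := rk φ b with hB
  have e1 : N * ((1 + μ • B) * M * (1 - μ • B)) + N * ((1 - μ • B) * M * (1 + μ • B))
      = (2 : F) • (N * M) - (2 * μ ^ 2) • (N * (B * M * B)) := by
    simp only [add_mul, mul_add, sub_mul, mul_sub, one_mul, mul_one, smul_mul_assoc,
      mul_smul_comm, smul_smul, mul_assoc]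
    module
  have e2 := congrArg (LinearMap.trace F V) e1
  rw [map_add, h1, h1', map_sub, map_smul, h0, smul_zero, zero_sub, add_zero, map_smul,
    rk_mul_rk, mul_smul_comm, mul_rk, map_smul, trace_rk] at e2
  have e3 : (2 * μ ^ 2) * (φ (M b) * φ (N b)) = 0 := by
    have := neg_eq_zero.1 e2.symm
    simpa [smul_eq_mul] using this
  rcases mul_eq_zero.1 e3 with h | h
  · exact absurd h (mul_ne_zero h2 (pow_ne_zero _ hμ))
  · exact (mul_eq_zero.1 h).symm

/-- Unipotent maps. -/
theorem trace_sub_one [Nontrivial V] {p : ℕ} [hp : Fact p.Prime] [CharP F p]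
    {x : Module.End F V} {k : ℕ} (hx : x ^ p ^ k = 1) : LinearMap.trace F V (x - 1) = 0 := by
  have hc : CharP (Module.End F V) p := charP_of_injective_algebraMap
    (algebraMap F (Module.End F V)).injective p
  have h1 : IsNilpotent (x - 1) := by
    refine ⟨p ^ k, ?_⟩
    rw [sub_pow_char_pow_of_commute _ _ (Commute.one_right x), hx, one_pow, sub_self]
  exact (LinearMap.isNilpotent_trace_of_isNilpotent h1).eq_zero

/-- The pair computation. -/
theorem trace_pair [Nontrivial V] {p : ℕ} [Fact p.Prime] [CharP F p]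
    {a b : Module.End F V} {i j k : ℕ} (ha : a ^ p ^ i = 1) (hb : b ^ p ^ j = 1)
    (hab : (a * b) ^ p ^ k = 1) : LinearMap.trace F V ((a - 1) * (b - 1)) = 0 := by
  have h : (a - 1) * (b - 1) = (a * b - 1) - (a - 1) - (b - 1) := by noncomm_ring
  rw [h, map_sub, map_sub, trace_sub_one hab, trace_sub_one ha, trace_sub_one hb, sub_zero, sub_zero]

end trace

section grp

variable {F V : Type*} [Field F] [AddCommGroup V] [Module F V] [Finite V]

/-- A group generated by two linear maps of order `p = char F` which is a `p`-group modulo scalars is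
a `p`-group. -/
theorem pow_one_of_scal {p : ℕ} [hp : Fact p.Prime] {a b : Equiv.Perm V}
    (ha : Semi (1 : F ≃+* F) a) (hb : Semi (1 : F ≃+* F) b) (hap : a ^ p = 1) (hbp : b ^ p = 1)
    (h : ∀ x ∈ Subgroup.closure ({a, b} : Set (Equiv.Perm V)), ∃ k : ℕ, IsScal F (x ^ p ^ k)) :
    ∃ k : ℕ, (a * b) ^ p ^ k = 1 := by
  set K := Subgroup.closure ({a, b} : Set (Equiv.Perm V)) with hK
  have haK : a ∈ K := Subgroup.subset_closure (by simp)
  have hbK : b ∈ K := Subgroup.subset_closure (by simp)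
  have hlin : ∀ x ∈ K, Semi (1 : F ≃+* F) x := by
    intro x hx
    induction hx using Subgroup.closure_induction with
    | mem x hx =>
      rcases hx with rfl | rfl
      · exact ha
      · exact hb
    | one => exact Semi.one
    | mul x y _ _ hx hy => simpa using hx.mul hy
    | inv x _ hx => simpa using hx.inv
  have hcen : ∀ x : K, IsScal F (x : Equiv.Perm V) → x ∈ Subgroup.center K := by
    intro x ⟨s, hs⟩
    rw [Subgroup.mem_center_iff]
    intro y
    apply Subtype.ext
    ext v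
    change (y : Equiv.Perm V) ((x : Equiv.Perm V) v) = (x : Equiv.Perm V) ((y : Equiv.Perm V) v)
    rw [hs, hs, (hlin _ y.2).smul]
    rfl
  have hQ : IsPGroup p (K ⧸ Subgroup.center K) := by
    intro x
    obtain ⟨x, rfl⟩ := QuotientGroup.mk_surjective x
    obtain ⟨k, hk⟩ := h x x.2
    refine ⟨k, ?_⟩
    rw [← QuotientGroup.mk_pow, QuotientGroup.eq_one_iff]
    exact hcen _ (by rw [Subgroup.coe_pow]; exact hk)
  have hQn : Group.IsNilpotent (K ⧸ Subgroup.center K) := hQ.isNilpotent
  have hKn : Group.IsNilpotent K := Group.of_quotient_center_nilpotent hQn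
  have hnorm : ∀ P : Sylow p K, P.Normal :=
    (Group.isNilpotent_of_finite_tfae.out 0 3 rfl rfl).mp hKn p hp
  obtain ⟨P⟩ : Nonempty (Sylow p K) := inferInstance
  have hmem : ∀ x : K, x ^ p = 1 → x ∈ P := by
    intro x hx
    have h1 : IsPGroup p (Subgroup.zpowers x) := by
      rintro ⟨y, hy⟩
      obtain ⟨i, rfl⟩ := hy
      refine ⟨1, Subtype.ext ?_⟩
      change (x ^ i) ^ p ^ 1 = 1
      rw [pow_one, ← zpow_natCast, ← zpow_mul, mul_comm, zpow_mul, zpow_natCast, hx, one_zpow]
    obtain ⟨Q, hQ⟩ := h1.exists_le_sylow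
    have := Sylow.unique_of_normal P (hnorm P)
    rw [Subsingleton.elim P Q]
    exact hQ (Subgroup.mem_zpowers x)
  have hab : (⟨a, haK⟩ * ⟨b, hbK⟩ : K) ∈ P :=
    mul_mem (hmem _ (Subtype.ext hap)) (hmem _ (Subtype.ext hbp))
  obtain ⟨k, hk⟩ := P.2 ⟨_, hab⟩
  refine ⟨k, ?_⟩
  have := congrArg (fun z : P => ((z : K) : Equiv.Perm V)) hk
  simpa using this

/-- The endomorphism of a linear equivalence. -/
def E : (V ≃ₗ[F] V) →* Module.End F V where
  toFun g := g.toLinearMap
  map_one' := rfl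
  map_mul' _ _ := rfl

omit [Finite V] in
@[simp] theorem E_apply (g : V ≃ₗ[F] V) (v : V) : E g v = g v := rfl

/-- **The trace of a pair.** -/
theorem trace_E [Nontrivial V] [FiniteDimensional F V] {p : ℕ} [hp : Fact p.Prime] [CharP F p]
    {g h : V ≃ₗ[F] V}
    (hgp : g ^ p = 1) (hhp : h ^ p = 1)
    (H : ∀ x ∈ Subgroup.closure ({toA g, toA h} : Set (Equiv.Perm V)),
      ∃ k : ℕ, IsScal F (x ^ p ^ k)) :
    LinearMap.trace F V ((E g - 1) * (E h - 1)) = 0 := by
  obtain ⟨k, hk⟩ := pow_one_of_scal (semi_toA g) (semi_toA h) (by rw [← map_pow, hgp, map_one])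
    (by rw [← map_pow, hhp, map_one]) H
  have h1 : (g * h) ^ p ^ k = 1 := by
    apply toA_injective
    rw [map_pow, map_mul, hk, map_one]
  refine trace_pair (p := p) (i := 1) (j := 1) (k := k) ?_ ?_ ?_
  · rw [pow_one, ← map_pow, hgp, map_one]
  · rw [pow_one, ← map_pow, hhp, map_one]
  · rw [← map_mul, ← map_pow, h1, map_one]

end grp

end Cfsg.Agent.H405.Wf
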