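import Cfsg.Agent.H405.Wf.Trace
import Cfsg.Agent.H405.Wf.Tr
import Cfsg.Agent.H957.T5U9

/-!
# Pairs of semilinear isometries of order `p = char F` of a unitary space (S3826)
-/

set_option autoImplicit false

namespace Cfsg.Agent.H405.Wf

open Cfsg Cfsg.Agent.LieClassical.HermBasic Cfsg.Agent.LieClassical.HermSiegel
open Cfsg.Agent.H957.T5V Cfsg.Agent.H957.T5Pairs Cfsg.Agent.H957.T5U
open Cfsg.Agent.H177.MeetPSU (rho rho_apply)
open Cfsg.Agent.ClassicalGeometry.UnitAutBasic (hL hL_apply)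
open Cfsg.Agent.H967.CopMat (Fx mem_Fx card_Fx)

variable {F : Type} [Field F] [Fintype F] {n q p : ℕ} {σ τ : F ≃+* F}
  {c d : Equiv.Perm (Fin n → F)}

section field

theorem exists_norm_sq (hF : Fintype.card F = q ^ 2) : ∃ ζ : F, ζ * ζ ^ q = 1 ∧ ζ ^ 2 ≠ 1 := by
  classical
  by_contra hcon
  push Not at hcon
  have h2 := two_le hF
  have h1 : Nat.card {x : F // x * x ^ q = 1} ≤ Nat.card (Fin 2) := by
    refine Nat.card_le_card_of_injective
      (fun x => if (x : F) = 1 then (0 : Fin 2) else 1) (fun x y h => ?_)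
    have key : ∀ x : {x : F // x * x ^ q = 1}, (x : F) ≠ 1 → (x : F) = -1 := by
      intro x hx
      have h3 := hcon x x.2
      have h4 : ((x : F) - 1) * ((x : F) + 1) = 0 := by linear_combination h3
      rcases mul_eq_zero.1 h4 with h | h
      · exact absurd (sub_eq_zero.1 h) hx
      · exact eq_neg_of_add_eq_zero_left h
    apply Subtype.ext
    by_cases hx : (x : F) = 1 <;> by_cases hy : (y : F) = 1
    · rw [hx, hy]
    · simp [hx, hy] at h
    · simp [hx, hy] at h
    · rw [key x hx, key y hy]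
  rw [card_norm_eq_one hF, Nat.card_eq_fintype_card, Fintype.card_fin] at h1
  omega

/-- A trace zero element moved by `τ`. -/
theorem exists_lambda (hF : Fintype.card F = q ^ 2) (hp : p.Prime) (hp2 : p ≠ 2)
    (hτ : orderOf τ = p) : ∃ l : F, l + l ^ q = 0 ∧ τ l ≠ l := by
  obtain ⟨q0, hq, h0⟩ := exists_q0 hF hp hp2 hτ
  obtain ⟨e, he0, he⟩ := exists_trace_zero_ne hF
  by_contra hcon
  push Not at hcon
  have h1 : ∀ x : F, x ^ q = x → τ x = x := by
    intro x hx
    have h2 := hcon (e * x) (by rw [mul_pow, hx, ← add_mul, he, zero_mul])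
    rw [map_mul, hcon e he] at h2
    exact mul_left_cancel₀ he0 h2
  have h2 : Nat.card {x : F // x ^ q = x} ≤ Nat.card (Fx τ) :=
    Nat.card_le_card_of_injective (fun x => ⟨x.1, h1 x.1 x.2⟩) (fun x y h => by
      apply Subtype.ext
      exact congrArg (fun z : Fx τ => (z : F)) h)
  rw [card_fixed hF, h0, hq] at h2
  have h3 : 2 ≤ q0 := by
    rcases q0 with _ | _ | q0
    · rw [zero_pow hp.ne_zero] at hq
      have := two_le hF
      omega
    · rw [zero_add, one_pow] at hq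
      have := two_le hF
      omega
    · omega
  have h4 : q0 ^ 2 < q0 ^ p := Nat.pow_lt_pow_right (by omega) (by
    have := hp.two_le
    omega)
  omega

end field

section basics

/-- The linear equivalence of an element of `SU`. -/
noncomputable def sl (s : SU n F q) : (Fin n → F) ≃ₗ[F] (Fin n → F) :=
  Classical.choose (exists_toA (si_rho s).semi)

omit [Fintype F] in
theorem toA_sl (s : SU n F q) : toA (sl s) = rho n F q s :=
  Classical.choose_spec (exists_toA (si_rho s).semi)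

omit [Fintype F] in
@[simp] theorem sl_apply (s : SU n F q) (v : Fin n → F) : sl s v = act s v := by
  rw [← toA_apply, toA_sl, rho_apply]

omit [Fintype F] in
theorem sl_mul (s t : SU n F q) : sl (s * t) = sl s * sl t := by
  apply toA_injective
  rw [toA_sl, map_mul, map_mul, toA_sl, toA_sl]

omit [Fintype F] in
theorem sl_inv (s : SU n F q) : sl s⁻¹ = (sl s)⁻¹ := by
  apply toA_injective
  rw [toA_sl, map_inv, map_inv, toA_sl]

/-- The transvections. -/
noncomputable def tv (hF : Fintype.card F = q ^ 2) (b : Fin n → F) (hb : hermForm n F q b b = 0)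
    (μ : F) (hμ : μ + μ ^ q = 0) : SU n F q :=
  siegel hF b 0 μ ⟨hb, herm_zero_left b, by rw [herm_zero_left, add_zero, hμ]⟩

variable (hF : Fintype.card F = q ^ 2) {b : Fin n → F} (hb : hermForm n F q b b = 0) {μ ν : F}
  (hμ : μ + μ ^ q = 0) (hν : ν + ν ^ q = 0)

theorem act_tv (v : Fin n → F) : act (tv hF b hb μ hμ) v = v + (μ * hermForm n F q v b) • b := by
  unfold tv
  rw [act_siegel, herm_zero_right hF, sub_zero, smul_zero, add_zero]

theorem E_tv : E (sl (tv hF b hb μ hμ)) = 1 + μ • rk (hL n q b) b := by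
  refine LinearMap.ext fun v => ?_
  change sl (tv hF b hb μ hμ) v = v + μ • (hL n q b v • b)
  rw [sl_apply, act_tv, smul_smul, hL_apply]

include hF

theorem neg_tr (hμ : μ + μ ^ q = 0) : -μ + (-μ) ^ q = 0 := by
  rw [neg_pow_q hF, ← neg_add, hμ, neg_zero]

theorem add_tr (hμ : μ + μ ^ q = 0) (hν : ν + ν ^ q = 0) : μ + ν + (μ + ν) ^ q = 0 := by
  rw [add_pow_q hF]
  linear_combination hμ + hν

theorem tv_mul : tv hF b hb μ hμ * tv hF b hb ν hν = tv hF b hb (μ + ν) (add_tr hF hμ hν) := by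
  apply ext_act
  intro v
  rw [act_mul, act_tv, act_tv, act_tv, herm_add_left, herm_smul_left, hb, mul_zero, add_zero,
    add_assoc, ← add_smul]
  congr 2
  ring

theorem tv_congr {μ' : F} (h : μ = μ') (hμ' : μ' + μ' ^ q = 0) :
    tv hF b hb μ hμ = tv hF b hb μ' hμ' := by
  subst h; rfl

theorem tv_zero : tv hF b hb (0 : F) (by rw [zero_pow_q hF, add_zero]) = 1 := by
  apply ext_act
  intro v
  rw [act_tv, zero_mul, zero_smul, add_zero, act_one]

theorem tv_inv : (tv hF b hb μ hμ)⁻¹ = tv hF b hb (-μ) (neg_tr hF hμ) := by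
  rw [inv_eq_iff_mul_eq_one, tv_mul, ← tv_zero hF hb]
  exact tv_congr hF hb _ (add_neg_cancel μ) _

/-- The computation with transvections. -/
theorem key_tv (h2 : (2 : F) ≠ 0) (hμ0 : μ ≠ 0) {N M : Module.End F (Fin n → F)}
    (h0 : LinearMap.trace F (Fin n → F) (N * M) = 0)
    (h1 : LinearMap.trace F (Fin n → F)
      (N * (E (sl (tv hF b hb μ hμ)) * M * E (sl (tv hF b hb μ hμ))⁻¹)) = 0)
    (h1' : LinearMap.trace F (Fin n → F) (N * (E (sl (tv hF b hb (-μ) (neg_tr hF hμ))) * M *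
      E (sl (tv hF b hb (-μ) (neg_tr hF hμ)))⁻¹)) = 0) :
    hermForm n F q (N b) b = 0 ∨ hermForm n F q (M b) b = 0 := by
  have e0 : (1 : Module.End F (Fin n → F)) + -μ • rk (hL n q b) b
      = 1 - μ • rk (hL n q b) b := by
    refine LinearMap.ext fun v => ?_
    change v + -μ • (hL n q b v • b) = v - μ • (hL n q b v • b)
    rw [neg_smul, sub_eq_add_neg]
  have e1 : E (sl (tv hF b hb μ hμ))⁻¹ = 1 - μ • rk (hL n q b) b := by
    rw [← sl_inv, tv_inv, E_tv, e0]
  have e2 : E (sl (tv hF b hb (-μ) (neg_tr hF hμ))) = 1 - μ • rk (hL n q b) b := by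
    rw [E_tv, e0]
  have e3 : E (sl (tv hF b hb (-μ) (neg_tr hF hμ)))⁻¹ = 1 + μ • rk (hL n q b) b := by
    rw [← sl_inv, tv_inv, tv_congr hF hb _ (neg_neg μ) hμ, E_tv]
  rw [e1, E_tv] at h1
  rw [e2, e3] at h1'
  exact trace_key h2 hμ0 h0 h1 h1'

end basics

section vector

/-- A non-trivial unipotent isometry moves some isotropic vector to a non-orthogonal one. -/
theorem exists_iso_ne (hF : Fintype.card F = q ^ 2) (hn : 2 ≤ n) (h2 : (2 : F) ≠ 0)
    {N : Module.End F (Fin n → F)}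
    (hN : ∀ b, hermForm n F q b b = 0 → hermForm n F q (N b) b = 0) :
    ∃ κ : F, ∀ v, N v = κ • v := by
  classical
  obtain ⟨t, ht0, ht⟩ := exists_norm_eq_ne hF (c := (-1 : F)) (by
    rw [neg_pow_q hF, one_pow]) (neg_ne_zero.2 one_ne_zero)
  obtain ⟨ζ, hζ, hζ2⟩ := exists_norm_sq hF
  let m : Fin n → Fin n → F := fun i j => N (Pi.single i 1) j
  have hm : ∀ i j, i ≠ j → ∀ s : F, s * s ^ q = -1 →
      s * (m i i - m j j) - m i j + s ^ 2 * m j i = 0 := by
    intro i j hij s hs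
    have e1 : ∀ u : Fin n → F, hermForm n F q u (Pi.single i 1 + s • Pi.single j 1)
        = u i + s ^ q * u j := by
      intro u
      rw [herm_add_right hF, herm_smul_right, herm_single_right hF, herm_single_right hF, one_pow,
        mul_one, mul_one]
    have hiso : hermForm n F q (Pi.single i 1 + s • Pi.single j 1)
        (Pi.single i 1 + s • Pi.single j 1) = 0 := by
      rw [e1]
      simp only [Pi.add_apply, Pi.smul_apply, Pi.single_eq_same, Pi.single_eq_of_ne hij,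
        Pi.single_eq_of_ne hij.symm, smul_eq_mul]
      linear_combination hs
    have e2 := hN _ hiso
    rw [e1, map_add, map_smul] at e2
    have e3 : m i i + s * m j i + s ^ q * (m i j + s * m j j) = 0 := e2
    linear_combination s * e3 - (m i j + s * m j j) * hs
  have hdiag : ∀ i j, i ≠ j → m i i = m j j ∧ m i j = 0 := by
    intro i j hij
    have a1 := hm i j hij t ht
    have a2 := hm i j hij (-t) (by rw [neg_pow_q hF, neg_mul_neg, ht])
    have a3 := hm i j hij (ζ * t) (by rw [LieClassical.HermBasic.norm_mul, hζ, ht, one_mul])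
    have a4 := hm i j hij (-(ζ * t)) (by rw [neg_pow_q hF, neg_mul_neg, LieClassical.HermBasic.norm_mul, hζ, ht, one_mul])
    have b1 : m i i - m j j = 0 := by
      have : (2 * t) * (m i i - m j j) = 0 := by linear_combination a1 - a2
      exact (mul_eq_zero.1 this).resolve_left (mul_ne_zero h2 ht0)
    have b2 : m j i = 0 := by
      have : (t ^ 2 * (ζ ^ 2 - 1)) * m j i = 0 := by
        rw [b1] at a1 a3
        linear_combination a3 - a1
      exact (mul_eq_zero.1 this).resolve_left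
        (mul_ne_zero (pow_ne_zero _ ht0) (sub_ne_zero.2 hζ2))
    refine ⟨sub_eq_zero.1 b1, ?_⟩
    rw [b1, b2] at a1
    linear_combination -a1
  have hn0 : 0 < n := by omega
  refine ⟨m ⟨0, hn0⟩ ⟨0, hn0⟩, fun v => ?_⟩
  have hbas : ∀ i, N (Pi.single i 1) = m ⟨0, hn0⟩ ⟨0, hn0⟩ • (Pi.single i 1 : Fin n → F) := by
    intro i
    funext j
    change m i j = m ⟨0, hn0⟩ ⟨0, hn0⟩ * (Pi.single i 1 : Fin n → F) j
    by_cases hij : i = j
    · subst hij
      rw [Pi.single_eq_same, mul_one]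
      by_cases hi : i = ⟨0, hn0⟩
      · rw [hi]
      · exact (hdiag i _ hi).1
    · rw [Pi.single_eq_of_ne (Ne.symm hij), mul_zero]
      exact (hdiag i j hij).2
  have h3 : N = m ⟨0, hn0⟩ ⟨0, hn0⟩ • (1 : Module.End F (Fin n → F)) := by
    apply LinearMap.pi_ext'
    intro i
    ext
    simp only [LinearMap.coe_comp, Function.comp_apply, LinearMap.coe_single]
    rw [hbas]
    rfl
  rw [h3]
  rfl

/-- A non-trivial unipotent isometry moves some isotropic vector to a non-orthogonal one. -/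
theorem exists_iso_lin (hF : Fintype.card F = q ^ 2) (hn : 2 ≤ n) (h2 : (2 : F) ≠ 0)
    {g : (Fin n → F) ≃ₗ[F] (Fin n → F)} (hg : ¬ IsScal F (toA g)) :
    ∃ b, hermForm n F q b b = 0 ∧ hermForm n F q ((E g - 1) b) b ≠ 0 := by
  by_contra hcon
  push Not at hcon
  obtain ⟨κ, hκ⟩ := exists_iso_ne hF hn h2 hcon
  apply hg
  refine ⟨κ + 1, fun v => ?_⟩
  have h1 : g v - v = κ • v := hκ v
  rw [toA_apply, add_smul, one_smul, ← h1, sub_add_cancel]

end vector

theorem two_ne (hp : p.Prime) (hp2 : p ≠ 2) [CharP F p] : (2 : F) ≠ 0 := by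
  intro h
  have h1 : ((2 : ℕ) : F) = 0 := by exact_mod_cast h
  rw [CharP.cast_eq_zero_iff F p] at h1
  exact hp2 ((Nat.prime_dvd_prime_iff_eq hp Nat.prime_two).1 h1)

section main

variable (hF : Fintype.card F = q ^ 2) (hn : 3 ≤ n) (hp : p.Prime) (hp2 : p ≠ 2) [CharP F p]

include hF hn hp hp2

/-- Two unipotent isometries. -/
theorem np_lin (hcp : c ^ p = 1) (hcn : ¬ IsScal F c) (hdp : d ^ p = 1) (hdn : ¬ IsScal F d)
    (hc : SI q (1 : F ≃+* F) c) (hd : SI q (1 : F ≃+* F) d) :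
    ∃ s : SU n F q, NP F p c (rho n F q s * d * (rho n F q s)⁻¹) := by
  have : Fact p.Prime := ⟨hp⟩
  have : Nonempty (Fin n) := ⟨⟨0, by omega⟩⟩
  have h2 := two_ne (F := F) hp hp2
  by_contra hcon
  push Not at hcon
  obtain ⟨g, rfl⟩ := exists_toA hc.semi
  obtain ⟨h, rfl⟩ := exists_toA hd.semi
  have hgp : g ^ p = 1 := by
    apply toA_injective
    rw [map_pow, hcp, map_one]
  have hhp : h ^ p = 1 := by
    apply toA_injective
    rw [map_pow, hdp, map_one]
  have htr : ∀ s : SU n F q, LinearMap.trace F (Fin n → F)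
      ((E g - 1) * (E (sl s) * (E h - 1) * E (sl s)⁻¹)) = 0 := by
    intro s
    have h1 : rho n F q s * toA h * (rho n F q s)⁻¹ = toA (sl s * h * (sl s)⁻¹) := by
      rw [map_mul, map_mul, map_inv, toA_sl]
    have h3 := hcon s
    rw [h1] at h3
    have h4 := trace_E (p := p) hgp (by rw [conj_pow, hhp, mul_one, mul_inv_cancel]) (not_NP h3)
    have h5 : E (sl s * h * (sl s)⁻¹) - 1 = E (sl s) * (E h - 1) * E (sl s)⁻¹ := by
      rw [mul_sub, sub_mul, mul_one, ← map_mul, ← map_mul, ← map_mul, mul_inv_cancel, map_one]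
    rwa [h5] at h4
  obtain ⟨e, he0, he⟩ := exists_trace_zero_ne hF
  obtain ⟨b, hb, hgb⟩ := exists_iso_lin hF (by omega) h2 hcn
  obtain ⟨b', hb', hhb⟩ := exists_iso_lin hF (by omega) h2 hdn
  have hb0 : b ≠ 0 := by
    rintro rfl
    exact hgb (herm_zero_right hF _)
  have hb0' : b' ≠ 0 := by
    rintro rfl
    exact hhb (herm_zero_right hF _)
  obtain ⟨s, hs⟩ := Cfsg.Agent.H77.Geom.exists_map hF hn hb0' hb' hb0 hb
  have hs' : act s⁻¹ b = b' := by rw [← hs, act_inv_act]
  have hM : ∀ t : SU n F q, E (sl t) * (E (sl s) * (E h - 1) * E (sl s)⁻¹) * E (sl t)⁻¹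
      = E (sl (t * s)) * (E h - 1) * E (sl (t * s))⁻¹ := by
    intro t
    rw [sl_mul, mul_inv_rev, map_mul, map_mul]
    simp only [mul_assoc]
  rcases key_tv hF hb he h2 he0 (N := E g - 1) (M := E (sl s) * (E h - 1) * E (sl s)⁻¹) (htr s)
    (by rw [hM]; exact htr _) (by rw [hM]; exact htr _) with h1 | h1
  · exact hgb h1
  · apply hhb
    rw [← h1, ← hs', ← sl_inv]
    change hermForm n F q ((E h - 1) (act s⁻¹ b)) (act s⁻¹ b)
      = hermForm n F q (sl s ((E h - 1) (sl s⁻¹ b))) b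
    rw [sl_apply, sl_apply, herm_act_left]

/-- A fixed isotropic vector. -/
theorem exists_fix_iso (hτ : orderOf τ = p) (hd : SI q τ d) (hdp : d ^ p = 1) :
    ∃ b, b ≠ 0 ∧ hermForm n F q b b = 0 ∧ d b = b := by
  obtain ⟨f, hf, hfd⟩ := exists_onb_fix hF hp hp2 hτ hd hdp 2 (by omega)
  obtain ⟨y, hy0, hyτ, hy⟩ := norm_fix hF hp hp2 hτ (a := -1) (neg_ne_zero.2 one_ne_zero)
    (by rw [map_neg, map_one]) (by rw [neg_pow_q hF, one_pow])
  have h00 : hermForm n F q (f 0) (f 0) = 1 := by rw [hf, if_pos rfl]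
  have h11 : hermForm n F q (f 1) (f 1) = 1 := by rw [hf, if_pos rfl]
  have h01 : hermForm n F q (f 0) (f 1) = 0 := by rw [hf, if_neg (by decide)]
  have h10 : hermForm n F q (f 1) (f 0) = 0 := by rw [hf, if_neg (by decide)]
  refine ⟨f 0 + y • f 1, ?_, ?_, ?_⟩
  · intro h
    have h1 : hermForm n F q (f 0 + y • f 1) (f 0) = 1 := by
      rw [herm_add_left, herm_smul_left, h00, h10, mul_zero, add_zero]
    rw [h, herm_zero_left] at h1
    exact zero_ne_one h1
  · rw [herm_add_left, herm_add_right hF, herm_add_right hF, herm_smul_left, herm_smul_left,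
      herm_smul_right, herm_smul_right, h00, h01, h10, h11]
    linear_combination hy
  · rw [hd.semi.add, hd.semi.smul, hfd, hfd, hyτ]

/-- A unipotent isometry and a field automorphism. -/
theorem np_semi (hcp : c ^ p = 1) (hcn : ¬ IsScal F c) (hdp : d ^ p = 1) (hτ : orderOf τ = p)
    (hc : SI q (1 : F ≃+* F) c) (hd : SI q τ d) :
    ∃ s : SU n F q, NP F p c (rho n F q s * d * (rho n F q s)⁻¹) := by
  have : Fact p.Prime := ⟨hp⟩
  have : Nonempty (Fin n) := ⟨⟨0, by omega⟩⟩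
  have h2 := two_ne (F := F) hp hp2
  by_contra hcon
  push Not at hcon
  obtain ⟨g, rfl⟩ := exists_toA hc.semi
  have hgp : g ^ p = 1 := by
    apply toA_injective
    rw [map_pow, hcp, map_one]
  -- the conjugates
  have htr : ∀ (s : SU n F q) (h : (Fin n → F) ≃ₗ[F] (Fin n → F)),
      toA h = d * toA (sl s * g * (sl s)⁻¹) * d⁻¹ → LinearMap.trace F (Fin n → F)
      ((E (sl s * g * (sl s)⁻¹) - 1) * (E h - 1)) = 0 := by
    intro s h hh
    have hgs : (sl s * g * (sl s)⁻¹) ^ p = 1 := by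
      rw [conj_pow, hgp, mul_one, mul_inv_cancel]
    have hhp : h ^ p = 1 := by
      apply toA_injective
      rw [map_pow, hh, conj_pow, ← map_pow, hgs, map_one, mul_one, mul_inv_cancel]
    refine trace_E (p := p) hgs hhp (not_NP fun hnp => hcon s⁻¹ ?_)
    have h1 : NP F p (toA (sl s * g * (sl s)⁻¹)) d := by
      refine hnp.mono (Subgroup.subset_closure (by simp)) ?_
      rw [hh]
      have hm1 : toA (sl s * g * (sl s)⁻¹) ∈
          Subgroup.closure ({toA (sl s * g * (sl s)⁻¹), d} : Set (Equiv.Perm (Fin n → F))) :=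
        Subgroup.subset_closure (by simp)
      have hm2 : d ∈
          Subgroup.closure ({toA (sl s * g * (sl s)⁻¹), d} : Set (Equiv.Perm (Fin n → F))) :=
        Subgroup.subset_closure (by simp)
      exact mul_mem (mul_mem hm2 hm1) (inv_mem hm2)
    have h3 := h1.conj (si_rho s⁻¹).semi
    have h4 : rho n F q s⁻¹ * toA (sl s * g * (sl s)⁻¹) * (rho n F q s⁻¹)⁻¹ = toA g := by
      rw [map_mul, map_mul, map_inv toA, toA_sl, map_inv]
      group
    rwa [h4] at h3
  obtain ⟨l, hl, hlτ⟩ := exists_lambda hF hp hp2 hτ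
  obtain ⟨b, hb0, hb, hdb⟩ := exists_fix_iso hF hn hp hp2 hτ hd hdp
  obtain ⟨b', hb', hgb⟩ := exists_iso_lin hF (by omega) h2 hcn
  have hb0' : b' ≠ 0 := by
    rintro rfl
    exact hgb (herm_zero_right hF _)
  obtain ⟨s, hs⟩ := Cfsg.Agent.H77.Geom.exists_map hF hn hb0' hb' hb0 hb
  have hs' : act s⁻¹ b = b' := by rw [← hs, act_inv_act]
  obtain ⟨g', hg'⟩ : ∃ g', g' = sl s * g * (sl s)⁻¹ := ⟨_, rfl⟩
  have hlin : Semi (1 : F ≃+* F) (d * toA g' * d⁻¹) := by
    have h1 := (hd.semi.mul (semi_toA g')).mul hd.semi.inv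
    simpa using h1
  obtain ⟨h', hh'⟩ := exists_toA hlin
  have hdb' : d⁻¹ b = b := by
    rw [Equiv.Perm.inv_eq_iff_eq, hdb]
  -- conjugation of transvections by `d`
  have hconj : ∀ (m : F) (hm : m + m ^ q = 0) (hm' : τ m + τ m ^ q = 0),
      d * rho n F q (tv hF b hb m hm) * d⁻¹ = rho n F q (tv hF b hb (τ m) hm') := by
    intro m hm hm'
    ext1 v
    rw [Equiv.Perm.mul_apply, Equiv.Perm.mul_apply, rho_apply, rho_apply, act_tv, act_tv,
      hd.semi.add, hd.semi.smul, hdb, apply_inv_self, map_mul, ← hd.herm, apply_inv_self, hdb]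
  have hpowτ : ∀ m : F, m + m ^ q = 0 → τ m + τ m ^ q = 0 := by
    intro m hm
    rw [← map_pow, ← map_add, hm, map_zero]
  have hsub : ∀ m : F, m + m ^ q = 0 → (τ m - m) + (τ m - m) ^ q = 0 := by
    intro m hm
    rw [sub_pow_q hF]
    linear_combination hpowτ m hm - hm
  have key : ∀ (m : F) (hm : m + m ^ q = 0) (k : F) (hk : k = τ m - m) (hk' : k + k ^ q = 0),
      LinearMap.trace F (Fin n → F) ((E g' - 1) * (E (sl (tv hF b hb k hk')) * (E h' - 1) *
        E (sl (tv hF b hb k hk'))⁻¹)) = 0 := by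
    intro m hm k hk hk'
    obtain ⟨t, ht⟩ : ∃ t, t = tv hF b hb m hm := ⟨_, rfl⟩
    obtain ⟨t', ht'⟩ : ∃ t', t' = tv hF b hb (τ m) (hpowτ m hm) := ⟨_, rfl⟩
    have e1 : sl (t * s) * g * (sl (t * s))⁻¹ = sl t * g' * (sl t)⁻¹ := by
      rw [sl_mul, hg']; group
    have e2 : toA (sl t' * h' * (sl t')⁻¹) = d * toA (sl (t * s) * g * (sl (t * s))⁻¹) * d⁻¹ := by
      have l1 : toA (sl t' * h' * (sl t')⁻¹)
          = rho n F q t' * (d * toA g' * d⁻¹) * (rho n F q t')⁻¹ := by
        rw [map_mul, map_mul, map_inv, toA_sl, hh']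
      have l2 : toA (sl t * g' * (sl t)⁻¹) = rho n F q t * toA g' * (rho n F q t)⁻¹ := by
        rw [map_mul, map_mul, map_inv, toA_sl]
      rw [l1, e1, l2, ht', ← hconj m hm (hpowτ m hm), ← ht]
      group
    have h1 := htr (t * s) _ e2
    rw [e1] at h1
    have e3 : E (sl t * g' * (sl t)⁻¹) - 1 = E (sl t) * ((E g' - 1) * E (sl t)⁻¹) := by
      rw [sub_mul, mul_sub, one_mul, ← map_mul, ← map_mul, ← map_mul, mul_inv_cancel, map_one,
        mul_assoc]
    have e4 : E (sl t' * h' * (sl t')⁻¹) - 1 = E (sl t') * (E h' - 1) * E (sl t')⁻¹ := by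
      rw [mul_sub, sub_mul, mul_one, ← map_mul, ← map_mul, ← map_mul, mul_inv_cancel, map_one]
    have e5 : tv hF b hb k hk' = t⁻¹ * t' := by
      rw [ht, ht', tv_inv, tv_mul]
      exact tv_congr hF hb _ (by rw [hk]; ring) _
    rw [e3, e4, mul_assoc, LinearMap.trace_mul_comm] at h1
    have e6 : E (sl (t⁻¹ * t')) = E (sl t)⁻¹ * E (sl t') := by
      rw [sl_mul, sl_inv, map_mul]
    have e7 : E (sl (t⁻¹ * t'))⁻¹ = E (sl t')⁻¹ * E (sl t) := by
      rw [sl_mul, sl_inv, mul_inv_rev, inv_inv, map_mul]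
    rw [e5, e6, e7, ← h1]
    simp only [mul_assoc]
  have htrace0 : LinearMap.trace F (Fin n → F) ((E g' - 1) * (E h' - 1)) = 0 := by
    rw [hg'] at hh' ⊢
    exact htr s h' hh'
  have hN : hermForm n F q ((E g' - 1) b) b ≠ 0 := by
    intro h0
    apply hgb
    rw [← h0, ← hs', hg']
    change hermForm n F q (g (act s⁻¹ b) - act s⁻¹ b) (act s⁻¹ b)
      = hermForm n F q (sl s (g ((sl s)⁻¹ b)) - b) b
    rw [← sl_inv, sl_apply, sl_apply, herm_sub_left, herm_sub_left, herm_act_left s, herm_act]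
  rcases key_tv hF hb (hsub l hl) h2 (sub_ne_zero.2 hlτ) (N := E g' - 1) (M := E h' - 1) htrace0
    (key l hl _ rfl _) (key (-l) (neg_tr hF hl) _ (by rw [map_neg]; ring) _) with h1 | h1
  · exact hN h1
  · apply hN
    have h3 : (E h' - 1) b = d ((E g' - 1) b) := by
      change h' b - b = d (g' b - b)
      rw [hd.semi.sub, hdb, ← toA_apply, hh', Equiv.Perm.mul_apply, Equiv.Perm.mul_apply, hdb']
      rfl
    rw [h3] at h1
    have h4 : hermForm n F q (d ((E g' - 1) b)) (d b) = 0 := by rw [hdb]; exact h1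
    rw [hd.herm] at h4
    exact (map_eq_zero τ).1 h4

/-- Two field automorphisms. -/
theorem np_field (hσ : orderOf σ = p) (hcp : c ^ p = 1) (hdp : d ^ p = 1) (hτ : orderOf τ = p)
    (hc : SI q σ c) (hd : SI q τ d) :
    ∃ s : SU n F q, NP F p c (rho n F q s * d * (rho n F q s)⁻¹) := by
  have : Fact p.Prime := ⟨hp⟩
  obtain ⟨e, he, hce⟩ := exists_onb_fix hF hp hp2 hσ hc hcp 3 hn
  obtain ⟨f, hf, hdf⟩ := exists_onb_fix hF hp hp2 hτ hd hdp 2 (by omega)
  obtain ⟨j, hj⟩ := exists_pow_inv hp hσ hτ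
  obtain ⟨w, hw, hwσ⟩ := exists_moved hF hp hp2 hσ
  have hw0 : w ≠ 0 := by
    rintro rfl
    rw [zero_mul] at hw
    exact zero_ne_one hw
  have he' : ∀ i j : Fin 2, hermForm n F q (![w • e 0, e 1] i) (![w • e 0, e 1] j)
      = if i = j then 1 else 0 := by
    intro i j
    have hw' : w ^ q * w = 1 := by rw [mul_comm, hw]
    fin_cases i <;> fin_cases j <;>
      simp [herm_smul_left, herm_smul_right, he, hw, hw']
  obtain ⟨s, hs⟩ := Cfsg.Agent.H77.Witt.exists_su_ext hF f ![w • e 0, e 1] (li_orth hF hf)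
    (li_orth hF he') (fun i j => by rw [hf, he']) (z := e 2)
    (by rw [he, if_pos rfl]; exact one_ne_zero) (fun i => by
      fin_cases i <;> simp [herm_smul_right, he])
  have hs0 : act s (f 0) = w • e 0 := hs 0
  have hs1 : act s (f 1) = e 1 := hs 1
  refine ⟨s, NP.of_pow 1 j fun k hk => ?_⟩
  rw [pow_one] at hk
  set x := c * (rho n F q s * d * (rho n F q s)⁻¹) ^ j with hx
  have hxlin : SI q (1 : F ≃+* F) x := by
    have h1 := hc.mul ((hd.conj s).pow j)
    rwa [hj, mul_inv_cancel] at h1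
  have hdf' : ∀ i (m : ℕ), (d ^ m) (f i) = f i := by
    intro i m
    induction m with
    | zero => rfl
    | succ m ih => rw [pow_succ, Equiv.Perm.mul_apply, hdf, ih]
  have hr0 : (rho n F q s)⁻¹ (e 0) = w⁻¹ • f 0 := by
    rw [Equiv.Perm.inv_eq_iff_eq, rho_apply, act_smul, hs0, inv_smul_smul₀ hw0]
  have hr1 : (rho n F q s)⁻¹ (e 1) = f 1 := by
    rw [Equiv.Perm.inv_eq_iff_eq, rho_apply, hs1]
  have hx0 : x (e 0) = (σ w * w⁻¹) • e 0 := by
    rw [hx, conj_pow, Equiv.Perm.mul_apply, Equiv.Perm.mul_apply, Equiv.Perm.mul_apply, hr0,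
      (hd.semi.pow j).smul, hdf', rho_apply, act_smul, hs0, hj, smul_smul, hc.semi.smul, hce,
      map_mul]
    congr 1
    have : σ (σ⁻¹ w⁻¹) = w⁻¹ := RingEquiv.apply_symm_apply σ _
    rw [this, mul_comm]
  have hx1 : x (e 1) = e 1 := by
    rw [hx, conj_pow, Equiv.Perm.mul_apply, Equiv.Perm.mul_apply, Equiv.Perm.mul_apply, hr1,
      hdf', rho_apply, hs1, hce]
  have hxm0 : ∀ m : ℕ, (x ^ m) (e 0) = (σ w * w⁻¹) ^ m • e 0 := by
    intro m
    induction m with
    | zero => rw [pow_zero, pow_zero, one_smul]; rfl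
    | succ m ih =>
      rw [pow_succ', Equiv.Perm.mul_apply, ih, hxlin.semi.smul, hx0, smul_smul, pow_succ]
      rfl
  have hxm1 : ∀ m : ℕ, (x ^ m) (e 1) = e 1 := by
    intro m
    induction m with
    | zero => rfl
    | succ m ih => rw [pow_succ', Equiv.Perm.mul_apply, ih, hx1]
  have hne : ∀ i, e i ≠ 0 := by
    intro i h
    have h1 := he i i
    rw [h, herm_zero_left, if_pos rfl] at h1
    exact zero_ne_one h1
  obtain ⟨a, ha⟩ := hk
  have h1 : a = 1 := by
    have h3 := ha (e 1)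
    rw [hxm1] at h3
    have h4 : (a - 1) • e 1 = 0 := by rw [sub_smul, one_smul, ← h3, sub_self]
    exact sub_eq_zero.1 ((smul_eq_zero.1 h4).resolve_right (hne 1))
  have h3 := ha (e 0)
  rw [hxm0, h1, one_smul] at h3
  have h4 : ((σ w * w⁻¹) ^ p ^ k - 1) • e 0 = 0 := by rw [sub_smul, one_smul, h3, sub_self]
  have h5 := (smul_eq_zero.1 h4).resolve_right (hne 0)
  have h6 : (σ w * w⁻¹ - 1) ^ p ^ k = 0 := by
    rw [sub_pow_char_pow, one_pow, h5]
  have h7 := sub_eq_zero.1 (pow_eq_zero_iff (pow_pos hp.pos k).ne' |>.1 h6)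
  apply hwσ
  have h8 : σ w * w⁻¹ * w = w := by rw [h7, one_mul]
  rwa [inv_mul_cancel_right₀ hw0] at h8

/-- **Main theorem.** -/
theorem np_main (hc : SI q σ c) (hcp : c ^ p = 1) (hcn : ¬ IsScal F c)
    (hd : SI q τ d) (hdp : d ^ p = 1) (hdn : ¬ IsScal F d) :
    ∃ s : SU n F q, NP F p c (rho n F q s * d * (rho n F q s)⁻¹) := by
  have hord : ∀ {θ : F ≃+* F} {x : Equiv.Perm (Fin n → F)}, SI q θ x → x ^ p = 1 →
      θ = 1 ∨ orderOf θ = p := by
    intro θ x hx hxp
    have : Fact p.Prime := ⟨hp⟩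
    have h1 : θ ^ p = 1 := by
      have h0 := (hx.pow p).semi
      rw [hxp] at h0
      have hv : ∃ v : Fin n → F, v ≠ 0 := ⟨fun _ => 1, fun h => one_ne_zero (congrFun h ⟨0, by omega⟩)⟩
      obtain ⟨v, hv⟩ := hv
      ext a
      have h2 := h0.smul a v
      change a • v = (θ ^ p) a • v at h2
      have h3 : (a - (θ ^ p) a) • v = 0 := by rw [sub_smul, ← h2, sub_self]
      exact (sub_eq_zero.1 ((smul_eq_zero.1 h3).resolve_right hv)).symm
    by_cases h : θ = 1
    · exact Or.inl h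
    · exact Or.inr (orderOf_eq_prime h1 h)
  rcases hord hc hcp with rfl | hσ <;> rcases hord hd hdp with rfl | hτ
  · exact np_lin hF hn hp hp2 hcp hcn hdp hdn hc hd
  · exact np_semi hF hn hp hp2 hcp hcn hdp hτ hc hd
  · obtain ⟨s, hs⟩ := np_semi hF hn hp hp2 hdp hdn hcp hσ hd hc
    refine ⟨s⁻¹, ?_⟩
    have h1 := (hs.conj (si_rho s⁻¹).semi).symm
    have h2 : rho n F q s⁻¹ * (rho n F q s * c * (rho n F q s)⁻¹) * (rho n F q s⁻¹)⁻¹ = c := by
      rw [map_inv]; group
    rwa [h2] at h1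
  · exact np_field hF hn hp hp2 hσ hcp hdp hτ hc hd

end main

end Cfsg.Agent.H405.Wf
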